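import Cfsg.Agent.H587.PQR.Fi24Def

/-! Kernel checks: the relations hold on the points of the generators of `Fi24`. -/

set_option autoImplicit false
set_option maxRecDepth 100000
set_option Elab.async false

namespace Cfsg.Agent.H587.PQR.Fi24Chk

open Cfsg.Agent.H587.PQR.Fi24Def

theorem chk_l : chk .l = true := by decide +kernel
theorem chk_k : chk .k = true := by decide +kernel
theorem chk_a : chk .a = true := by decide +kernel
theorem chk_b : chk .b = true := by decide +kernel
theorem chk_c : chk .c = true := by decide +kernel
theorem chk_d : chk .d = true := by decide +kernel
theorem chk_e : chk .e = true := by decide +kernel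
theorem chk_f : chk .f = true := by decide +kernel
theorem chk_g : chk .g = true := by decide +kernel
theorem chk_j : chk .j = true := by decide +kernel
theorem chk_h : chk .h = true := by decide +kernel
theorem chk_i : chk .i = true := by decide +kernel

end Cfsg.Agent.H587.PQR.Fi24Chk
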