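import Cfsg.Agent.H562.PQR.Iface
import Cfsg.Agent.H868.HeFi24
import Cfsg.Agent.H587.PQR.Fi24Chk
import Cfsg.Agent.R08.FiTwentyFour
import Cfsg.Agent.S1698
import Cfsg.Agent.S2055

/-!
# S3988, row `Fi24'` (helper587, market task 2748)

`Fi23 ≤ Fi24'` contains all the primes except 29; explicit words give a triple of type `(8, 9, 29)`.
-/

set_option autoImplicit false

namespace Cfsg.Agent.H587.PQR.Fi24

open Cfsg Cfsg.Agent.Fischer Cfsg.Agent.H562.PQR
open Cfsg.Agent.Lib.PermNet Cfsg.Agent.Lib.PermNetPt Cfsg.Agent.Fischer.Fi24RepDef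
  Cfsg.Agent.Fischer.Fi24Rep Cfsg.Agent.Fischer.HeInFi24
open Cfsg.Agent.Fischer.HeInFi24Def (stdW)
open Cfsg.Agent.H587.PQR.Fi24Def Cfsg.Agent.H587.PQR.Fi24Chk
open Cfsg.Agent.R08.FiTwentyFour (facts)

theorem chk_all (x : Cfsg.Spor.Fi24.Gen) : Fi24Def.chk x = true := by
  cases x
  · exact chk_l
  · exact chk_k
  · exact chk_a
  · exact chk_b
  · exact chk_c
  · exact chk_d
  · exact chk_e
  · exact chk_f
  · exact chk_g
  · exact chk_j
  · exact chk_h
  · exact chk_i

/-- The relations fix the points of the generators. -/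
theorem fix {l : List Cfsg.Spor.Fi24.Gen} (hl : l ∈ rws0) (x : Cfsg.Spor.Fi24.Gen) :
    rho (word l) (rho (word (stdW x)) 0) = rho (word (stdW x)) 0 := by
  have h := chk_all x
  unfold Fi24Def.chk at h
  rw [force_eq] at h
  have h1 := chkFix_spec h Fi24Def.rws_ok (nw l false) (List.mem_map_of_mem hl) _ List.mem_cons_self
  rw [winv_eq (wok (stdW x).reverse false), ← rho_word, ← rho_word, ← map_inv, word_reverse, inv_inv] at h1
  exact h1

/-- The relations commute with the generators of `Fi24`. -/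
theorem comm_gen {l : List Cfsg.Spor.Fi24.Gen} (hl : l ∈ rws0) (x : Cfsg.Spor.Fi24.Gen) :
    word l * gen x = gen x * word l := by
  have h := fix hl x
  have h1 : rho ((word (stdW x))⁻¹ * word l * word (stdW x)) 0 = 0 := by
    rw [map_mul, map_mul, Equiv.Perm.mul_apply, Equiv.Perm.mul_apply, h, ← Equiv.Perm.mul_apply, ← map_mul,
      inv_mul_cancel, map_one, Equiv.Perm.one_apply]
  have h2 := Fi24Real.stab_comm facts.hub facts.hne _ h1
  rw [gen_eq x]
  calc word l * (word (stdW x) * gen .l * (word (stdW x))⁻¹)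
      = word (stdW x) * ((word (stdW x))⁻¹ * word l * word (stdW x) * gen .l) * (word (stdW x))⁻¹ := by group
    _ = word (stdW x) * (gen .l * ((word (stdW x))⁻¹ * word l * word (stdW x))) * (word (stdW x))⁻¹ := by
      rw [h2]
    _ = word (stdW x) * gen .l * (word (stdW x))⁻¹ * word l := by group

theorem comm_all {l : List Cfsg.Spor.Fi24.Gen} (hl : l ∈ rws0) (g : Cfsg.Spor.Fi24) :
    word l * g = g * word l := by
  have h : g ∈ Subgroup.centralizer {word l} := by
    refine PresentedGroup.generated_by _ _ (fun x => ?_) g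
    rw [Subgroup.mem_centralizer_singleton_iff]
    exact (comm_gen hl x).symm
  rw [Subgroup.mem_centralizer_singleton_iff] at h
  exact h.symm

theorem rel_one {l : List Cfsg.Spor.Fi24.Gen} (hl : l ∈ rws0) : word l = 1 := by
  have h0 : rho (word l) 0 = 0 := by
    have h := fix hl .l
    rwa [show stdW .l = [] from rfl, word_nil, map_one, Equiv.Perm.one_apply] at h
  apply Fi24Final.eq_one_of_fixes facts.hub facts.hne facts.hfin facts.hH
  intro q hq
  have hq' : q ∈ {p : ℕ | ∃ x, Fi24Rep.rho x 0 = p} := by rw [Fi24RepOrb.orbG]; exact hq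
  obtain ⟨k, rfl⟩ := hq'
  rw [← Equiv.Perm.mul_apply, ← map_mul, comm_all hl, map_mul, Equiv.Perm.mul_apply, h0]

theorem word_rep (n : ℕ) (l : List Cfsg.Spor.Fi24.Gen) : word (rep n l) = word l ^ n := by
  induction n with
  | zero =>
    show word [] = _
    rw [word_nil, pow_zero]
  | succ n ih =>
    show word (l ++ rep n l) = _
    rw [word_append, ih, pow_succ']

/-- a word moving a point is not trivial -/
theorem word_ne_one {l : List Cfsg.Spor.Fi24.Gen} (p : ℕ) (h : Nat.beq (winv (nw l false) p) p = false) :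
    word l ≠ 1 := by
  intro h1
  have h2 : rho (word l) = 1 := by rw [h1, map_one]
  rw [rho_word] at h2
  rw [winv_eq (wok l false), h2, inv_one, Equiv.Perm.one_apply, Nat.beq_refl] at h
  exact absurd h (by simp)

theorem X_pow : word X ^ 8 = 1 := by
  rw [← word_rep]; exact rel_one (by simp [rws0])

theorem Y_pow : word Y ^ 9 = 1 := by
  rw [← word_rep]; exact rel_one (by simp [rws0])

theorem XY_pow : (word X * word Y) ^ 29 = 1 := by
  rw [← word_append, ← word_rep]; exact rel_one (by simp [rws0])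

theorem X_ne : word X ≠ 1 := word_ne_one 0 (by decide +kernel)
theorem Y_ne : word Y ≠ 1 := word_ne_one 1 (by decide +kernel)
theorem XY_ne : word X * word Y ≠ 1 := by
  rw [← word_append]; exact word_ne_one 0 (by decide +kernel)

theorem sgn_word (l : List Cfsg.Spor.Fi24.Gen) : Fi24Final.sgn (word l) = (-1) ^ l.length := by
  induction l with
  | nil => rw [word_nil, map_one]; rfl
  | cons x l ih => rw [word_cons, map_mul, ih, List.length_cons, pow_succ']; congr 1

theorem mem_comm {l : List Cfsg.Spor.Fi24.Gen} (h : Even l.length) : word l ∈ commutator Cfsg.Spor.Fi24 := by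
  rw [Cfsg.Agent.R08.FiTwentyFour.mem_commutator_iff, sgn_word, h.neg_one_pow]

/-- `Fi24'` has a subgroup isomorphic to `Fi23` -/
theorem exists_fi23 : ∃ M : Subgroup Spor.Fi24', IsSimpleGroup ↥M ∧ Nat.card ↥M = 4089470473293004800 := by
  have h97 := Cfsg.Agent.S1697.result
  obtain ⟨φ, hφ⟩ := Fi24Class.exists_fi23_hom (Fi24Real.spider facts.hfin facts.hH)
  have hφ1 : Function.Injective φ := by
    apply Fi24Class.injective_of_simple h97.1
    refine ⟨Cfsg.Agent.SporRec.Fi23Rel.gen .a, ?_⟩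
    rw [hφ]
    intro h
    apply Fi24Class.a_ne_l (by rw [Cfsg.Agent.S1698.result.2]; norm_num)
    have h2 : Fi24Class.gen .a * Fi24Class.gen .l = 1 := h
    rw [mul_eq_one_iff_eq_inv, Fi24Class.gen_inv] at h2
    exact h2
  have hp23 : commutator Spor.Fi23 = ⊤ := Fi24Class.perfect_of_simple h97.1 (by
    rw [h97.2]
    intro hp
    exact absurd ((Nat.prime_dvd_prime_iff_eq Nat.prime_two hp).1 (by norm_num)) (by norm_num))
  obtain ⟨K, hK1, hK2⟩ := Fi24Class.exists_subgroup h97.1 φ hφ1 (commutator Spor.Fi24)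
    (Fi24Class.range_le_commutator hp23 φ)
  exact ⟨K, hK1, hK2.trans h97.2⟩

theorem even_X : Even X.length := by decide
theorem even_Y : Even Y.length := by decide

/-- the triple of type `(2, 3, 29)` -/
theorem trip : TripABC 2 3 29 Cfsg.Spor.Fi24' := by
  have hm := Cfsg.Agent.H80.Fpf.multDvd_of_cyclic (by norm_num) Cfsg.Agent.S2055.result
  let x : Cfsg.Spor.Fi24' := ⟨word X, mem_comm even_X⟩
  let y : Cfsg.Spor.Fi24' := ⟨word Y, mem_comm even_Y⟩
  have hx : PE 2 x := by
    refine ⟨fun h => X_ne (congrArg Subtype.val h), ?_⟩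
    have h1 : orderOf x ∣ 2 ^ 3 := orderOf_dvd_of_pow_eq_one (Subtype.ext X_pow)
    obtain ⟨k, -, hk⟩ := (Nat.dvd_prime_pow Nat.prime_two).1 h1
    exact ⟨k, hk⟩
  have hy : PE 3 y := by
    refine ⟨fun h => Y_ne (congrArg Subtype.val h), ?_⟩
    have h1 : orderOf y ∣ 3 ^ 2 := orderOf_dvd_of_pow_eq_one (Subtype.ext Y_pow)
    obtain ⟨k, -, hk⟩ := (Nat.dvd_prime_pow Nat.prime_three).1 h1
    exact ⟨k, hk⟩
  have hz : PE 29 (x * y)⁻¹ := by
    refine PE.inv ⟨fun h => XY_ne (congrArg Subtype.val h), ?_⟩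
    have h1 : orderOf (x * y) ∣ 29 ^ 1 := orderOf_dvd_of_pow_eq_one (Subtype.ext XY_pow)
    obtain ⟨k, -, hk⟩ := (Nat.dvd_prime_pow (by norm_num)).1 h1
    exact ⟨k, hk⟩
  refine TripABC.of_mult hm (fun s hs h => ?_) Nat.prime_two Nat.prime_three (by norm_num) (by norm_num) (by norm_num)
    (by norm_num) hx hy hz (mul_inv_cancel _)
  exact Or.inr (Or.inr (Or.inl ((Nat.prime_dvd_prime_iff_eq hs Nat.prime_three).1 h)))

theorem card_fi24' : Nat.card Cfsg.Spor.Fi24' = 1255205709190661721292800 := Cfsg.Agent.S1698.result.2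

/-- **the row `Fi24'`** -/
theorem row_Fi24' : RowOdd Cfsg.Spor.Fi24' := by
  intro p hp hp2 hd
  have : Fact p.Prime := ⟨hp⟩
  have hfin : Finite Cfsg.Spor.Fi24' := Nat.finite_of_card_ne_zero (by rw [card_fi24']; norm_num)
  rw [card_fi24'] at hd
  by_cases h29 : p = 29
  · subst h29
    exact Or.inr ⟨2, 3, 29, Or.inr (Or.inr rfl), Or.inl rfl, trip⟩
  · left
    have hn : p ∣ 4089470473293004800 := by
      have h1 : (1255205709190661721292800 : ℕ) = 306936 * 4089470473293004800 := by norm_num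
      rw [h1] at hd
      rcases hp.dvd_mul.1 hd with h2 | h2
      · have h3 : (306936 : ℕ) = 2 ^ 3 * 3 ^ 3 * 7 ^ 2 * 29 := by norm_num
        rw [h3] at h2
        rcases hp.dvd_mul.1 h2 with h2 | h2
        · rcases hp.dvd_mul.1 h2 with h2 | h2
          · rcases hp.dvd_mul.1 h2 with h2 | h2
            · exact absurd ((Nat.prime_dvd_prime_iff_eq hp Nat.prime_two).1 (hp.dvd_of_dvd_pow h2)) hp2
            · rw [(Nat.prime_dvd_prime_iff_eq hp Nat.prime_three).1 (hp.dvd_of_dvd_pow h2)]; norm_num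
          · rw [(Nat.prime_dvd_prime_iff_eq hp (by norm_num)).1 (hp.dvd_of_dvd_pow h2)]; norm_num
        · exact absurd ((Nat.prime_dvd_prime_iff_eq hp (by norm_num)).1 h2) h29
      · exact h2
    obtain ⟨M, hM, hc⟩ := exists_fi23
    refine ⟨M, fun h => ?_, ?_⟩
    · have h1 := hc
      rw [h, Subgroup.card_top, card_fi24'] at h1
      exact absurd h1 (by norm_num)
    · have hna : ∃ x y : M, x * y ≠ y * x := by
        by_contra hcon
        push Not at hcon
        let _ : CommGroup M := { (inferInstance : Group M) with mul_comm := hcon }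
        have h1 := IsSimpleGroup.prime_card (α := M)
        rw [hc] at h1
        exact absurd h1 (by norm_num)
      exact not_isPSolvable_of_simple hna hp (by rw [hc]; exact hn)

end Cfsg.Agent.H587.PQR.Fi24
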