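import Cfsg.Agent.Fischer.HeInFi24Def

/-!
# S3988, row `Fi24'` (helper587): words of orders 8, 9 with a product of order 29
-/

set_option autoImplicit false

namespace Cfsg.Agent.H587.PQR.Fi24Def

open Cfsg.Agent.Lib.PermNet Cfsg.Agent.Lib.PermNetPt Cfsg.Agent.Fischer.Fi24RepDef
open Cfsg.Agent.Fischer.HeInFi24Def (stdW)
open Cfsg.Spor.Fi24 (Gen)

/-- a word of order 8 -/
def X : List Gen := [.f, .k, .b, .c, .d, .e, .h, .f]

/-- a word of order 9 -/
def Y : List Gen := [.l, .a, .b, .c, .d, .e, .g, .j, .h, .i]

/-- The words of the relations. -/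
def rws0 : List (List Gen) := [rep 8 X, rep 9 Y, rep 29 (X ++ Y)]

/-- The network words of the relations. -/
noncomputable def rws : List (List Net) := rws0.map (fun l => nw l false)

theorem rws_ok : ∀ w ∈ rws, WOk 327680 w := by
  intro w hw
  obtain ⟨l, _, rfl⟩ := List.mem_map.1 hw
  exact wok l false

/-- All the relations fix the point of `x`. -/
noncomputable def chk (x : Gen) : Bool :=
  force (winv (nw (stdW x).reverse false) 0) fun p => chkFix rws [p]

end Cfsg.Agent.H587.PQR.Fi24Def
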